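import Cfsg.Agent.H562.PQR.Iface
import Cfsg.Prelude.Def_Classification2

/-!
# S3988 (helper562): from the rows of the explicit groups to all simple groups
-/

set_option autoImplicit false

namespace Cfsg.Agent.H562.PQR

open Cfsg

universe u

/-- the rows for the odd primes -/
structure RowsOdd : Prop where
  alt : ∀ n : ℕ, 5 ≤ n → RowOdd (alternatingGroup (Fin n))
  psl2 : ∀ (F : Type) [Field F] [Fintype F], 4 ≤ Fintype.card F →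
    RowOdd (Matrix.ProjectiveSpecialLinearGroup (Fin 2) F)
  psl : ∀ (F : Type) [Field F] [Fintype F] (n : ℕ), 3 ≤ n → RowOdd (Matrix.ProjectiveSpecialLinearGroup (Fin n) F)
  psp : ∀ (F : Type) [Field F] [Fintype F] (m : ℕ), 2 ≤ m → (m = 2 → 3 ≤ Fintype.card F) → RowOdd (PSp m F)
  psu : ∀ (F : Type) [Field F] [Fintype F] (n q : ℕ), Fintype.card F = q ^ 2 → 3 ≤ n → ¬ (n = 3 ∧ q = 2) →
    RowOdd (PSU n F q)
  omegaOdd : ∀ (F : Type) [Field F] [Fintype F] (m : ℕ), 3 ≤ m → Odd (Fintype.card F) →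
    RowOdd (POmega F (quadFormOdd m F))
  omegaPlus : ∀ (F : Type) [Field F] [Fintype F] (m : ℕ), 4 ≤ m → RowOdd (POmega F (quadFormPlus m F))
  omegaMinus : ∀ (F : Type) [Field F] [Fintype F] (m : ℕ) (a b : F), 4 ≤ m →
    (∀ z₁ z₂ : F, z₁ ^ 2 + a * z₁ * z₂ + b * z₂ ^ 2 = 0 → z₁ = 0 ∧ z₂ = 0) →
    RowOdd (POmega F (quadFormMinus (m - 1) F a b))
  g2 : ∀ (F : Type) [Field F] [Fintype F], 3 ≤ Fintype.card F → RowOdd (Lie.chevG2.group F)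
  f4 : ∀ (F : Type) [Field F] [Fintype F], RowOdd (Lie.chevF4.group F)
  e6 : ∀ (F : Type) [Field F] [Fintype F], RowOdd (Lie.chevE6.group F)
  e7 : ∀ (F : Type) [Field F] [Fintype F], RowOdd (Lie.chevE7.group F)
  e8 : ∀ (F : Type) [Field F] [Fintype F], RowOdd (Lie.chevE8.group F)
  e6t : ∀ (K : Type) [Field K] [Fintype K] (q : ℕ), IsPrimePow q → Fintype.card K = q ^ 2 →
    RowOdd (Lie.twistedE6 K q)
  d4t : ∀ (K : Type) [Field K] [Fintype K] (q : ℕ), IsPrimePow q → Fintype.card K = q ^ 3 →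
    RowOdd (Lie.twistedD4 K q)
  sz : ∀ (F : Type) [Field F] [Fintype F] (m : ℕ), 1 ≤ m → Fintype.card F = 2 ^ (2 * m + 1) →
    RowOdd (Lie.Sz F (2 ^ (m + 1)))
  ree : ∀ (K : Type) [Field K] [Fintype K] (m : ℕ), 1 ≤ m → Fintype.card K = 3 ^ (2 * m + 1) →
    RowOdd (Lie.twistedG2 K (3 ^ m))
  f4t : ∀ (K : Type) [Field K] [Fintype K] (m : ℕ), 1 ≤ m → Fintype.card K = 2 ^ (2 * m + 1) →
    RowOdd (Lie.twistedF4 K (2 ^ m))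
  tits : RowOdd Lie.TitsGroup
  m11 : RowOdd Spor.M11
  m12 : RowOdd Spor.M12
  m22 : RowOdd Spor.M22
  m23 : RowOdd Spor.M23
  m24 : RowOdd M24
  j1 : RowOdd Spor.J1
  j2 : RowOdd Spor.J2
  j3 : ∀ (F : Type) [Field F] [Fintype F] (ω : F), Fintype.card F = 4 → ω ^ 2 + ω + 1 = 0 → RowOdd (Spor.J3 F ω)
  j4 : RowOdd Spor.J4
  co1 : RowOdd Spor.Co1
  co2 : RowOdd Spor.Co2
  co3 : RowOdd Spor.Co3
  mcl : RowOdd Spor.McL
  hs : RowOdd Spor.HS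
  suz : RowOdd Spor.Suz
  he : RowOdd Spor.He
  ru : RowOdd Spor.Ru
  on : RowOdd Spor.ON
  ly : RowOdd Spor.Ly
  fi22 : RowOdd Spor.Fi22
  fi23 : RowOdd Spor.Fi23
  fi24 : RowOdd Spor.Fi24'
  hn : RowOdd Spor.HN
  th : RowOdd Spor.Th
  b : RowOdd Spor.BabyMonster
  m : RowOdd Spor.Monster

/-- **all known non-abelian simple groups, odd primes** -/
theorem RowsOdd.of_known (R : RowsOdd) {S : Type u} [Group S] [Finite S] (hnp : ¬ (Nat.card S).Prime)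
    (h : IsKnownSimple' S) : RowOdd S := by
  rcases h with h | ⟨n, hn, ⟨e⟩⟩ | ⟨F, _, _, n, hn, hn2, ⟨e⟩⟩ | ⟨F, _, _, m, hm, hm2, ⟨e⟩⟩ | ⟨F, _, _, n, q, hF, hn, hn2, ⟨e⟩⟩ |
    ⟨F, _, _, m, hm, ho, ⟨e⟩⟩ | ⟨F, _, _, m, hm, ⟨e⟩⟩ | ⟨F, _, _, m, a, b, hm, hab, ⟨e⟩⟩ | h | h
  · exact absurd h hnp
  · exact (R.alt n hn).congr e.symm
  · by_cases h2 : n = 2
    · subst h2
      exact (R.psl2 F (hn2 rfl)).congr e.symm
    · exact (R.psl F n (by omega)).congr e.symm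
  · exact (R.psp F m hm hm2).congr e.symm
  · exact (R.psu F n q hF hn hn2).congr e.symm
  · exact (R.omegaOdd F m hm ho).congr e.symm
  · exact (R.omegaPlus F m hm).congr e.symm
  · exact (R.omegaMinus F m a b hm hab).congr e.symm
  · rcases h with ⟨F, _, _, hF, ⟨e⟩⟩ | ⟨F, _, _, ⟨e⟩⟩ | ⟨F, _, _, ⟨e⟩⟩ | ⟨F, _, _, ⟨e⟩⟩ | ⟨F, _, _, ⟨e⟩⟩ |
      ⟨K, _, _, q, hq, hK, ⟨e⟩⟩ | ⟨K, _, _, q, hq, hK, ⟨e⟩⟩ | ⟨F, _, _, m, hm, hF, ⟨e⟩⟩ | ⟨K, _, _, m, hm, hK, ⟨e⟩⟩ |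
      ⟨K, _, _, m, hm, hK, ⟨e⟩⟩ | ⟨⟨e⟩⟩
    · exact (R.g2 F hF).congr e.symm
    · exact (R.f4 F).congr e.symm
    · exact (R.e6 F).congr e.symm
    · exact (R.e7 F).congr e.symm
    · exact (R.e8 F).congr e.symm
    · exact (R.e6t K q hq hK).congr e.symm
    · exact (R.d4t K q hq hK).congr e.symm
    · exact (R.sz F m hm hF).congr e.symm
    · exact (R.ree K m hm hK).congr e.symm
    · exact (R.f4t K m hm hK).congr e.symm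
    · exact RowOdd.congr (S := Lie.TitsGroup) e.symm R.tits
  · rcases h with ⟨⟨e⟩⟩ | ⟨⟨e⟩⟩ | ⟨⟨e⟩⟩ | ⟨⟨e⟩⟩ | ⟨⟨e⟩⟩ | ⟨⟨e⟩⟩ | ⟨⟨e⟩⟩ | ⟨F, _, _, ω, hF, hω, ⟨e⟩⟩ | ⟨⟨e⟩⟩ |
      ⟨⟨e⟩⟩ | ⟨⟨e⟩⟩ | ⟨⟨e⟩⟩ | ⟨⟨e⟩⟩ | ⟨⟨e⟩⟩ | ⟨⟨e⟩⟩ | ⟨⟨e⟩⟩ | ⟨⟨e⟩⟩ | ⟨⟨e⟩⟩ |
      ⟨⟨e⟩⟩ | ⟨⟨e⟩⟩ | ⟨⟨e⟩⟩ | ⟨⟨e⟩⟩ | ⟨⟨e⟩⟩ | ⟨⟨e⟩⟩ | ⟨⟨e⟩⟩ | ⟨⟨e⟩⟩
    · exact R.m11.congr e.symm
    · exact R.m12.congr e.symm
    · exact R.m22.congr e.symm
    · exact R.m23.congr e.symm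
    · exact R.m24.congr e.symm
    · exact R.j1.congr e.symm
    · exact R.j2.congr e.symm
    · exact (R.j3 F ω hF hω).congr e.symm
    · exact R.j4.congr e.symm
    · exact R.co1.congr e.symm
    · exact R.co2.congr e.symm
    · exact R.co3.congr e.symm
    · exact R.mcl.congr e.symm
    · exact R.hs.congr e.symm
    · exact R.suz.congr e.symm
    · exact R.he.congr e.symm
    · exact R.ru.congr e.symm
    · exact R.on.congr e.symm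
    · exact R.ly.congr e.symm
    · exact R.fi22.congr e.symm
    · exact R.fi23.congr e.symm
    · exact R.fi24.congr e.symm
    · exact R.hn.congr e.symm
    · exact R.th.congr e.symm
    · exact R.b.congr e.symm
    · exact R.m.congr e.symm

/-- all primes -/
theorem RowsOdd.row (R : RowsOdd) {S : Type u} [Group S] [Finite S] (hnp : ¬ (Nat.card S).Prime)
    (h : IsKnownSimple' S) (h2 : NotMin 2 S ∨ Trip 2 S) : Row S := by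
  intro p hp hd
  by_cases hp2 : p = 2
  · subst hp2
    exact h2
  · exact R.of_known hnp h p hp hp2 hd

end Cfsg.Agent.H562.PQR
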