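import Mathlib
import Cfsg.Agent.H562.PQR.Iface
import Cfsg.Agent.H967.CopConj

/-!
# S3988 (helper562), lifting lemma, part A: parity, `s'`-lifts and their conjugacy
-/

set_option autoImplicit false

open scoped Pointwise

namespace Cfsg.Agent.H562.PQR.Lift

/-- a symmetric function with odd sum on a group of odd order does not vanish at `1` -/
theorem ne_zero_of_symm {P : Type*} [Group P] [Fintype P] (hodd : Odd (Nat.card P)) (f : P → ℕ)
    (hf : ∀ c, f c⁻¹ = f c) (hs : Odd (∑ c, f c)) : f 1 ≠ 0 := by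
  intro h1
  have h2 : ((∑ c, f c : ℕ) : ZMod 2) = 0 := by
    rw [Nat.cast_sum]
    refine Finset.sum_involution (fun c _ => c⁻¹) ?_ ?_ (fun c _ => Finset.mem_univ _) (fun c _ => inv_inv c)
    · intro c _
      rw [hf]
      exact CharTwo.add_self_eq_zero _
    · intro c _ hc h3
      have h4 : c ^ 2 = 1 := by
        rw [pow_two]
        nth_rewrite 1 [← h3]
        exact inv_mul_cancel c
      have h5 : c ^ Nat.card P = 1 := pow_card_eq_one'
      have h6 := pow_gcd_eq_one.2 ⟨h4, h5⟩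
      have h7 : Nat.gcd 2 (Nat.card P) = 1 := Nat.coprime_two_left.2 hodd
      rw [h7, pow_one] at h6
      rw [h6, h1] at hc
      exact hc Nat.cast_zero
  rw [ZMod.natCast_eq_zero_iff] at h2
  exact (Nat.not_even_iff_odd.2 hs) (even_iff_two_dvd.2 h2)

variable {X : Type*} [Group X] [Finite X] {S : Type*} [Group S] {s : ℕ}

/-- `s'`-lifts -/
theorem exists_lift (hs : s.Prime) {π : X →* S} (x₀ : X) (hx : ¬ s ∣ orderOf (π x₀)) :
    ∃ x' : X, π x' = π x₀ ∧ ¬ s ∣ orderOf x' := by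
  obtain ⟨j, m, hm, hj⟩ := Nat.exists_eq_pow_mul_and_not_dvd (orderOf_pos x₀).ne' s hs.ne_one
  have hco : Nat.Coprime m (s ^ j) := (Nat.Coprime.pow_left j ((Nat.Prime.coprime_iff_not_dvd hs).2 hm)).symm
  obtain ⟨t, ht1, ht2⟩ := Nat.chineseRemainder hco 1 0
  have hd : orderOf (π x₀) ∣ m := by
    have h1 : orderOf (π x₀) ∣ orderOf x₀ := orderOf_map_dvd π x₀
    rw [hj] at h1
    refine Nat.Coprime.dvd_of_dvd_mul_left ?_ h1
    exact (Nat.Coprime.pow_left j ((Nat.Prime.coprime_iff_not_dvd hs).2 hx)).symm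
  refine ⟨x₀ ^ t, ?_, fun h => ?_⟩
  · rw [map_pow]
    have h2 : t ≡ 1 [MOD orderOf (π x₀)] := ht1.of_dvd hd
    rw [pow_eq_pow_iff_modEq.2 h2, pow_one]
  · have h3 : (x₀ ^ t) ^ m = 1 := by
      rw [← pow_mul]
      apply orderOf_dvd_iff_pow_eq_one.1
      rw [hj]
      exact Nat.mul_dvd_mul_right ((Nat.modEq_zero_iff_dvd).1 ht2) _
    exact hm (h.trans (orderOf_dvd_of_pow_eq_one h3))

/-- `s'`-elements with the same image are conjugate under the kernel -/
theorem exists_conj (hs : s.Prime) {π : X →* S} (hk : IsPGroup s π.ker) {x y : X} (hx : ¬ s ∣ orderOf x)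
    (hy : ¬ s ∣ orderOf y) (h : π x = π y) : ∃ e ∈ π.ker, e * x * e⁻¹ = y := by
  have : Fact s.Prime := ⟨hs⟩
  obtain ⟨n, hn⟩ := IsPGroup.iff_card.1 hk
  set M := π.ker ⊔ Subgroup.zpowers x with hM
  have hkM : π.ker ≤ M := le_sup_left
  have hxM : x ∈ M := Subgroup.mem_sup_right (Subgroup.mem_zpowers x)
  have hyx : y * x⁻¹ ∈ π.ker := by rw [MonoidHom.mem_ker, map_mul, map_inv, h, mul_inv_cancel]
  have hyM : y ∈ M := by
    have h1 := mul_mem (hkM hyx) hxM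
    rwa [inv_mul_cancel_right] at h1
  let x₁ : M := ⟨x, hxM⟩
  let y₁ : M := ⟨y, hyM⟩
  set I := π.ker.subgroupOf M with hI
  have hIc : Nat.card I = s ^ n := by
    rw [← hn]
    exact Nat.card_congr (Subgroup.subgroupOfEquivOfLe hkM).toEquiv
  have hox : orderOf x₁ = orderOf x := (Subgroup.orderOf_coe x₁).symm
  have hoy : orderOf y₁ = orderOf y := (Subgroup.orderOf_coe y₁).symm
  have hcop : ∀ m : ℕ, ¬ s ∣ m → m.Coprime (Nat.card I) := by
    intro m hm
    rw [hIc]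
    exact Nat.Coprime.pow_right n ((Nat.Prime.coprime_iff_not_dvd hs).2 hm).symm
  obtain ⟨g, hg⟩ := Cfsg.Agent.H967.CopConj.conj_le I (Subgroup.zpowers x₁) inferInstance
    (hcop _ (by rwa [Nat.card_zpowers, hox])) (Subgroup.zpowers y₁) (hcop _ (by rwa [Nat.card_zpowers, hoy]))
    (by
      rw [Subgroup.zpowers_le]
      have h1 : y₁ = y₁ * x₁⁻¹ * x₁ := by group
      rw [h1]
      refine mul_mem (Subgroup.mem_sup_right ?_) (Subgroup.mem_sup_left (Subgroup.mem_zpowers _))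
      exact Subgroup.mem_subgroupOf.2 hyx)
  -- `g = x ^ i * k`
  have hgM : (g : X) ∈ Subgroup.zpowers x ⊔ π.ker := by rw [sup_comm]; exact g.2
  rw [← SetLike.mem_coe, Subgroup.mul_normal] at hgM
  obtain ⟨c, hc, k, hkk, hck⟩ := hgM
  have h1 : MulAut.conj g • y₁ ∈ Subgroup.zpowers x₁ :=
    hg (Subgroup.smul_mem_pointwise_smul _ _ _ (Subgroup.mem_zpowers y₁))
  obtain ⟨j, hj⟩ := Subgroup.mem_zpowers_iff.1 h1
  have h2 : x ^ j = (g : X) * y * (g : X)⁻¹ := congrArg Subtype.val hj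
  obtain ⟨i, rfl⟩ := Subgroup.mem_zpowers_iff.1 hc
  have hck' : x ^ i * k = (g : X) := hck
  have h3 : k * y * k⁻¹ = x ^ j := by
    have h4 : x ^ i * (k * y * k⁻¹) * (x ^ i)⁻¹ = x ^ j := by rw [h2, ← hck']; group
    calc k * y * k⁻¹ = (x ^ i)⁻¹ * (x ^ i * (k * y * k⁻¹) * (x ^ i)⁻¹) * x ^ i := by group
      _ = (x ^ i)⁻¹ * x ^ j * x ^ i := by rw [h4]
      _ = x ^ j := by rw [← zpow_neg, ← zpow_add, ← zpow_add]; congr 1; ring
  have hπk : π k = 1 := MonoidHom.mem_ker.1 hkk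
  have h4 : π (x ^ j) = π x := by
    rw [← h3, map_mul, map_mul, map_inv, hπk, one_mul, inv_one, mul_one, h]
  have h5 : x ^ j = x := by
    have h6 : x ^ j * x⁻¹ ∈ π.ker := by rw [MonoidHom.mem_ker, map_mul, map_inv, h4, mul_inv_cancel]
    have h7 : x ^ j * x⁻¹ ∈ Subgroup.zpowers x :=
      mul_mem (Subgroup.zpow_mem_zpowers x j) (inv_mem (Subgroup.mem_zpowers x))
    obtain ⟨l, hl⟩ := hk ⟨_, h6⟩
    have h8 : (x ^ j * x⁻¹) ^ s ^ l = 1 := congrArg Subtype.val hl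
    have h9 : orderOf (x ^ j * x⁻¹) ∣ orderOf x := orderOf_dvd_of_mem_zpowers h7
    have h10 : orderOf (x ^ j * x⁻¹) = 1 := by
      refine Nat.Coprime.eq_one_of_dvd ?_ (orderOf_dvd_of_pow_eq_one h8)
      exact Nat.Coprime.pow_right l ((Nat.Prime.coprime_iff_not_dvd hs).2 (fun h11 => hx (h11.trans h9))).symm
    exact mul_inv_eq_one.1 (orderOf_eq_one_iff.1 h10)
  refine ⟨k⁻¹, inv_mem hkk, ?_⟩
  rw [← h5, ← h3]
  group

end Cfsg.Agent.H562.PQR.Lift
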