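import Mathlib
import Cfsg.Agent.H562.PQR.LiftA
import Cfsg.Agent.H80.Fpf.Sub

/-!
# S3988 (helper562), lifting lemma, part B: the group `Ξ` of the pairs `(A, g)`, `A r(n) A⁻¹ = r(g n g⁻¹)`
-/

set_option autoImplicit false

namespace Cfsg.Agent.H562.PQR.Lift

open Cfsg.Agent.H80.Fpf (IsCover perf_commutator)

universe u v w

section Xi

variable {X : Type u} [Group X] {P : Subgroup X} [hPn : P.Normal] {W : Type v} [Group W] (r : P →* W) (δ : W →* ℂˣ)
  (N : ℕ)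

/-- the pairs `(A, g)` -/
def Xi : Subgroup (W × X) where
  carrier := {a | (∀ n : P, a.1 * r n * a.1⁻¹ = r (MulAut.conjNormal a.2 n)) ∧ δ a.1 ^ N = 1}
  mul_mem' := by
    rintro a b ⟨ha, ha'⟩ ⟨hb, hb'⟩
    refine ⟨fun n => ?_, ?_⟩
    · rw [Prod.fst_mul, Prod.snd_mul, map_mul, MulAut.mul_apply, ← ha, ← hb]
      group
    · rw [Prod.fst_mul, map_mul, mul_pow, ha', hb', one_mul]
  one_mem' := by
    refine ⟨fun n => ?_, ?_⟩
    · rw [Prod.fst_one, Prod.snd_one, map_one, MulAut.one_apply, one_mul, inv_one, mul_one]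
    · rw [Prod.fst_one, map_one, one_pow]
  inv_mem' := by
    rintro a ⟨ha, ha'⟩
    refine ⟨fun n => ?_, ?_⟩
    · have h1 := ha (MulAut.conjNormal a.2⁻¹ n)
      rw [← MulAut.mul_apply, ← map_mul, mul_inv_cancel, map_one, MulAut.one_apply] at h1
      rw [Prod.fst_inv, Prod.snd_inv, ← h1]
      group
    · rw [Prod.fst_inv, map_inv, inv_pow, ha', inv_one]

theorem mem_Xi {a : W × X} : a ∈ Xi r δ N ↔ (∀ n : P, a.1 * r n * a.1⁻¹ = r (MulAut.conjNormal a.2 n)) ∧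
    δ a.1 ^ N = 1 := Iff.rfl

/-- first projection -/
def p1 : Xi r δ N →* W := (MonoidHom.fst W X).comp (Xi r δ N).subtype

/-- second projection -/
def p2 : Xi r δ N →* X := (MonoidHom.snd W X).comp (Xi r δ N).subtype

variable {r δ N}

theorem ext12 {a b : Xi r δ N} (h1 : p1 r δ N a = p1 r δ N b) (h2 : p2 r δ N a = p2 r δ N b) : a = b :=
  Subtype.ext (Prod.ext h1 h2)

/-- the copy of `P` -/
def diag (hN : ∀ n : P, δ (r n) ^ N = 1) : P →* Xi r δ N where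
  toFun u := ⟨(r u, (u : X)), fun n => by
    rw [← map_mul, ← map_inv, ← map_mul]
    congr 1, hN u⟩
  map_one' := Subtype.ext (Prod.ext (map_one r) rfl)
  map_mul' u v := Subtype.ext (Prod.ext (map_mul r u v) rfl)

variable (hN : ∀ n : P, δ (r n) ^ N = 1)

theorem p1_diag (u : P) : p1 r δ N (diag hN u) = r u := rfl

theorem p2_diag (u : P) : p2 r δ N (diag hN u) = u := rfl

theorem conj_diag (a : Xi r δ N) (u : P) :
    a * diag hN u * a⁻¹ = diag hN (MulAut.conjNormal (p2 r δ N a) u) := by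
  apply ext12
  · rw [map_mul, map_mul, map_inv, p1_diag, p1_diag]
    exact a.2.1 u
  · rw [map_mul, map_mul, map_inv, p2_diag, p2_diag]
    rfl

instance diag_normal : (diag hN).range.Normal := by
  refine ⟨?_⟩
  rintro _ ⟨u, rfl⟩ a
  exact ⟨_, (conj_diag hN a u).symm⟩

theorem mem_diag {a : Xi r δ N} (ha : a ∈ (diag hN).range) : ∃ u : P, a = diag hN u ∧ p2 r δ N a = u := by
  obtain ⟨u, rfl⟩ := ha
  exact ⟨u, rfl, rfl⟩

end Xi

/-- central lifting, all universes -/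
theorem clift_univ {s : ℕ} {S : Type v} [Group S] {x y z : S} (h : CLift s x y z) {Γ : Type w} [Group Γ] [Finite Γ]
    {π : Γ →* S} (hπ : IsCover π) (hk : IsPGroup s π.ker) : ∃ x' y' z' : Γ, π x' = x ∧ π y' = y ∧ π z' = z ∧
      x' * y' * z' = 1 ∧ ¬ s ∣ orderOf x' ∧ ¬ s ∣ orderOf y' ∧ ¬ s ∣ orderOf z' := by
  let e : Shrink.{0} Γ ≃* Γ := Shrink.mulEquiv
  have : Finite (Shrink.{0} Γ) := Finite.of_equiv Γ e.symm.toEquiv
  have hc : IsCover (π.comp e.toMonoidHom) := by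
    refine ⟨hπ.surj.comp e.surjective, ?_, ?_⟩
    · intro g hg
      have h1 : e g ∈ π.ker := hg
      have h2 := Subgroup.mem_center_iff.1 (hπ.central h1)
      refine Subgroup.mem_center_iff.2 fun t => e.injective ?_
      rw [map_mul, map_mul]
      exact h2 (e t)
    · have h1 := Cfsg.Agent.H80.Fpf.map_commutator_of_surj (f := e.symm.toMonoidHom) e.symm.surjective
      rw [← h1, hπ.perf]
      exact Subgroup.map_top_of_surjective _ e.symm.surjective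
  have hk' : IsPGroup s (π.comp e.toMonoidHom).ker := by
    rintro ⟨g, hg⟩
    obtain ⟨j, hj⟩ := hk ⟨e g, hg⟩
    refine ⟨j, Subtype.ext (e.injective ?_)⟩
    change e (g ^ s ^ j) = e 1
    rw [map_pow, map_one]
    exact congrArg Subtype.val hj
  obtain ⟨x', y', z', h1, h2, h3, h4, h5, h6, h7⟩ := h (Shrink.{0} Γ) _ hc hk'
  refine ⟨e x', e y', e z', h1, h2, h3, ?_, ?_, ?_, ?_⟩
  · rw [← map_mul, ← map_mul, h4, map_one]
  · rwa [e.orderOf_eq]
  · rwa [e.orderOf_eq]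
  · rwa [e.orderOf_eq]

/-- lifting to a finite group with a central kernel modulo a normal `s`-subgroup -/
theorem exists_triple {s : ℕ} (hs : s.Prime) {Y : Type u} [Group Y] [Finite Y] {S : Type v} [Group S]
    (hS : commutator S = ⊤) {q : Y →* S} (hq : Function.Surjective q) {D : Subgroup Y} [D.Normal] (hD : IsPGroup s D)
    (hDq : D ≤ q.ker) (hcen : ∀ a ∈ q.ker, ∀ b : Y, a * b * a⁻¹ * b⁻¹ ∈ D) (hker : IsPGroup s q.ker) {x y z : S}
    (hC : CLift s x y z) : ∃ x' y' z' : Y, q x' = x ∧ q y' = y ∧ q z' = z ∧ x' * y' * z' ∈ D ∧ ¬ s ∣ orderOf x' ∧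
      ¬ s ∣ orderOf y' ∧ ¬ s ∣ orderOf z' := by
  set π₀ : Y ⧸ D →* S := QuotientGroup.lift D q hDq with hπ₀
  have hsurj : Function.Surjective π₀ := by
    intro t
    obtain ⟨g, hg⟩ := hq t
    exact ⟨QuotientGroup.mk g, hg⟩
  have hcen₀ : π₀.ker ≤ Subgroup.center (Y ⧸ D) := by
    intro g hg
    obtain ⟨a, rfl⟩ := QuotientGroup.mk_surjective g
    have ha : a ∈ q.ker := hg
    refine Subgroup.mem_center_iff.2 fun t => ?_
    obtain ⟨b, rfl⟩ := QuotientGroup.mk_surjective t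
    have h1 := hcen a ha b
    rw [← QuotientGroup.eq_one_iff, QuotientGroup.mk_mul, QuotientGroup.mk_mul, QuotientGroup.mk_mul,
      QuotientGroup.mk_inv, QuotientGroup.mk_inv, mul_inv_eq_one, mul_inv_eq_iff_eq_mul] at h1
    exact h1.symm
  have hk₀ : IsPGroup s π₀.ker := by
    rintro ⟨g, hg⟩
    obtain ⟨a, rfl⟩ := QuotientGroup.mk_surjective g
    obtain ⟨j, hj⟩ := hker ⟨a, hg⟩
    refine ⟨j, Subtype.ext ?_⟩
    change (QuotientGroup.mk a : Y ⧸ D) ^ s ^ j = 1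
    rw [← QuotientGroup.mk_pow]
    have h1 : a ^ s ^ j = 1 := congrArg Subtype.val hj
    rw [h1, QuotientGroup.mk_one]
  obtain ⟨hperf, hmap⟩ := perf_commutator hsurj hcen₀ hS
  have hcov : IsCover (π₀.comp (commutator (Y ⧸ D)).subtype) := by
    refine ⟨?_, ?_, hperf⟩
    · intro t
      have h1 : t ∈ (commutator (Y ⧸ D)).map π₀ := by rw [hmap]; trivial
      obtain ⟨g, hg, hgt⟩ := h1
      exact ⟨⟨g, hg⟩, hgt⟩
    · intro g hg
      have h1 := Subgroup.mem_center_iff.1 (hcen₀ (show (g : Y ⧸ D) ∈ π₀.ker from hg))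
      exact Subgroup.mem_center_iff.2 fun t => Subtype.ext (h1 t)
  have hkc : IsPGroup s (π₀.comp (commutator (Y ⧸ D)).subtype).ker := by
    rintro ⟨g, hg⟩
    obtain ⟨j, hj⟩ := hk₀ ⟨(g : Y ⧸ D), hg⟩
    exact ⟨j, Subtype.ext (Subtype.ext (show ((g : Y ⧸ D)) ^ s ^ j = 1 from congrArg Subtype.val hj))⟩
  obtain ⟨x₁, y₁, z₁, h1, h2, h3, h4, h5, h6, h7⟩ := clift_univ hC hcov hkc
  have lift : ∀ t : commutator (Y ⧸ D), ¬ s ∣ orderOf t → ∃ t' : Y, (QuotientGroup.mk t' : Y ⧸ D) = t ∧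
      ¬ s ∣ orderOf t' := by
    intro t ht
    obtain ⟨t₀, ht₀⟩ := QuotientGroup.mk_surjective (t : Y ⧸ D)
    obtain ⟨t', ht1, ht2⟩ := exists_lift hs (π := QuotientGroup.mk' D) t₀ (by
      change ¬ s ∣ orderOf (QuotientGroup.mk t₀ : Y ⧸ D)
      rwa [ht₀, Subgroup.orderOf_coe])
    exact ⟨t', ht1.trans ht₀, ht2⟩
  obtain ⟨x', hx1, hx2⟩ := lift x₁ h5
  obtain ⟨y', hy1, hy2⟩ := lift y₁ h6
  obtain ⟨z', hz1, hz2⟩ := lift z₁ h7
  refine ⟨x', y', z', ?_, ?_, ?_, ?_, hx2, hy2, hz2⟩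
  · rw [← h1]
    change π₀ (QuotientGroup.mk x') = π₀ x₁
    rw [hx1]
  · rw [← h2]
    change π₀ (QuotientGroup.mk y') = π₀ y₁
    rw [hy1]
  · rw [← h3]
    change π₀ (QuotientGroup.mk z') = π₀ z₁
    rw [hz1]
  · rw [← QuotientGroup.eq_one_iff, QuotientGroup.mk_mul, QuotientGroup.mk_mul, hx1, hy1, hz1]
    exact congrArg Subtype.val h4

end Cfsg.Agent.H562.PQR.Lift
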