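import Mathlib
import Cfsg.Agent.H562.PQR.LiftB
import Cfsg.Agent.CharactersDeep.InvRep
import Cfsg.Agent.Characters.DegreeBounds

/-!
# S3988 (helper562), lifting lemma, part C: the group `Ξ` of an invariant irreducible representation
-/

set_option autoImplicit false

namespace Cfsg.Agent.H562.PQR.Lift

open Module

universe u v w

section rep

variable {X : Type u} [Group X] {P : Subgroup X} [hPn : P.Normal] {V : Type} [AddCommGroup V] [Module ℂ V]
  [FiniteDimensional ℂ V]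

/-- the determinant -/
noncomputable def dt (V : Type) [AddCommGroup V] [Module ℂ V] : (Module.End ℂ V)ˣ →* ℂˣ :=
  Units.map (LinearMap.det : Module.End ℂ V →* ℂ)

/-- the scalars -/
noncomputable def sc (V : Type) [AddCommGroup V] [Module ℂ V] : ℂˣ →* (Module.End ℂ V)ˣ :=
  Units.map (algebraMap ℂ (Module.End ℂ V)).toMonoidHom

theorem sc_coe (c : ℂˣ) : ((sc V c : (Module.End ℂ V)ˣ) : Module.End ℂ V) = (c : ℂ) • 1 := by
  change algebraMap ℂ (Module.End ℂ V) c = _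
  rw [Algebra.algebraMap_eq_smul_one]

theorem sc_comm (c : ℂˣ) (A : (Module.End ℂ V)ˣ) : sc V c * A = A * sc V c := by
  apply Units.ext
  rw [Units.val_mul, Units.val_mul, sc_coe, smul_mul_assoc, mul_smul_comm, one_mul, mul_one]

theorem dt_sc (c : ℂˣ) : dt V (sc V c) = c ^ finrank ℂ V := by
  apply Units.ext
  change LinearMap.det ((sc V c : (Module.End ℂ V)ˣ) : Module.End ℂ V) = _
  rw [sc_coe, LinearMap.det_smul, Units.val_pow_eq_pow_val]
  have h1 : LinearMap.det (1 : Module.End ℂ V) = 1 := map_one _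
  rw [h1, mul_one]

/-- the homomorphism to the units -/
noncomputable def un (ρ : Representation ℂ P V) : P →* (Module.End ℂ V)ˣ := MonoidHom.toHomUnits ρ

theorem un_coe (ρ : Representation ℂ P V) (n : P) : ((un ρ n : (Module.End ℂ V)ˣ) : Module.End ℂ V) = ρ n := rfl

theorem dt_un [Finite P] (ρ : Representation ℂ P V) (n : P) : dt V (un ρ n) ^ Nat.card P = 1 := by
  rw [← map_pow, ← map_pow, pow_card_eq_one', map_one, map_one]

variable (ρ : Representation ℂ P V)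

/-- an element commuting with an irreducible representation is a scalar -/
theorem exists_sc (hρ : ρ.IsIrreducible) {A : (Module.End ℂ V)ˣ} (h : ∀ n : P, A * un ρ n * A⁻¹ = un ρ n) :
    ∃ c : ℂˣ, A = sc V c := by
  have h1 : ∀ n, (A : Module.End ℂ V) * ρ n = ρ n * A := by
    intro n
    have h2 := h n
    rw [mul_inv_eq_iff_eq_mul] at h2
    exact congrArg Units.val h2
  obtain ⟨c, hc⟩ := Cfsg.Agent.CharactersDeep.InvRep.exists_smul_of_comm ρ hρ (A : Module.End ℂ V) h1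
  have hV : Nontrivial V := ((Cfsg.Agent.CharactersDeep.InvRep.isIrreducible_iff ρ).1 hρ).1
  have hc0 : c ≠ 0 := by
    rintro rfl
    rw [zero_smul] at hc
    exact A.ne_zero hc
  refine ⟨Units.mk0 c hc0, Units.ext ?_⟩
  rw [hc, sc_coe, Units.val_mk0]

variable {N : ℕ}

/-- the kernel of `Ξ → X` -/
theorem exists_sc_of_p2 (hρ : ρ.IsIrreducible) {a : Xi (un ρ) (dt V) N} (ha : p2 _ _ _ a = 1) :
    ∃ c : ℂˣ, p1 _ _ _ a = sc V c ∧ c ^ (finrank ℂ V * N) = 1 := by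
  have h1 : ∀ n : P, p1 _ _ _ a * un ρ n * (p1 _ _ _ a)⁻¹ = un ρ n := by
    intro n
    have h2 := a.2.1 n
    have h3 : (a : (Module.End ℂ V)ˣ × X).2 = 1 := ha
    rw [h3, map_one, MulAut.one_apply] at h2
    exact h2
  obtain ⟨c, hc⟩ := exists_sc ρ hρ h1
  refine ⟨c, hc, ?_⟩
  have h2 : dt V (p1 _ _ _ a) ^ N = 1 := a.2.2
  rwa [hc, dt_sc, ← pow_mul] at h2

theorem finite_Xi [Finite X] (hρ : ρ.IsIrreducible) (hN : N ≠ 0) : Finite (Xi (un ρ) (dt V) N) := by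
  have hV : Nontrivial V := ((Cfsg.Agent.CharactersDeep.InvRep.isIrreducible_iff ρ).1 hρ).1
  have hd : finrank ℂ V * N ≠ 0 := mul_ne_zero finrank_pos.ne' hN
  have : NeZero (finrank ℂ V * N) := ⟨hd⟩
  have hfin : Finite (p2 (un ρ) (dt V) N).ker := by
    have h1 : Finite (rootsOfUnity (finrank ℂ V * N) ℂ) := inferInstance
    have h2 : ∀ a : (p2 (un ρ) (dt V) N).ker, ∃ c : rootsOfUnity (finrank ℂ V * N) ℂ,
        p1 _ _ _ (a : Xi (un ρ) (dt V) N) = sc V c := by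
      intro a
      obtain ⟨c, hc, hc'⟩ := exists_sc_of_p2 ρ hρ (MonoidHom.mem_ker.1 a.2)
      exact ⟨⟨c, hc'⟩, hc⟩
    choose f hf using h2
    refine Finite.of_injective f fun a b hab => Subtype.ext (ext12 ?_ ?_)
    · rw [hf, hf, hab]
    · rw [MonoidHom.mem_ker.1 a.2, MonoidHom.mem_ker.1 b.2]
  have h3 := Subgroup.card_eq_card_quotient_mul_card_subgroup (p2 (un ρ) (dt V) N).ker
  have h4 : Finite (Xi (un ρ) (dt V) N ⧸ (p2 (un ρ) (dt V) N).ker) :=
    Finite.of_injective _ (QuotientGroup.kerLift_injective (p2 (un ρ) (dt V) N))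
  apply Nat.finite_of_card_ne_zero
  rw [h3]
  exact mul_ne_zero Nat.card_pos.ne' Nat.card_pos.ne'

theorem p2_surjective [Finite P] (hρ : ρ.IsIrreducible)
    (hinv : ∀ (g : X) (n : P), ρ.character (MulAut.conjNormal g n) = ρ.character n) :
    Function.Surjective (p2 (un ρ) (dt V) N) := by
  intro g
  have hV : Nontrivial V := ((Cfsg.Agent.CharactersDeep.InvRep.isIrreducible_iff ρ).1 hρ).1
  obtain ⟨T, hT⟩ := Cfsg.Agent.CharactersDeep.InvRep.exists_intertwiner ρ hρ g (fun n => hinv g n)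
  obtain ⟨c, hc⟩ := IsAlgClosed.exists_pow_nat_eq (((dt V T)⁻¹ : ℂˣ) : ℂ) (n := finrank ℂ V) finrank_pos
  have hc0 : c ≠ 0 := by
    rintro rfl
    rw [zero_pow finrank_pos.ne'] at hc
    exact Units.ne_zero _ hc.symm
  have hc1 : (Units.mk0 c hc0) ^ finrank ℂ V = (dt V T)⁻¹ := Units.ext (by
    rw [Units.val_pow_eq_pow_val, Units.val_mk0, hc])
  have hT' : ∀ n : P, T * un ρ n * T⁻¹ = un ρ (MulAut.conjNormal g n) := by
    intro n
    rw [mul_inv_eq_iff_eq_mul]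
    exact Units.ext (hT n)
  refine ⟨⟨(sc V (Units.mk0 c hc0) * T, g), fun n => ?_, ?_⟩, rfl⟩
  · change sc V (Units.mk0 c hc0) * T * un ρ n * (sc V (Units.mk0 c hc0) * T)⁻¹ = un ρ (MulAut.conjNormal g n)
    rw [← hT' n]
    calc sc V (Units.mk0 c hc0) * T * un ρ n * (sc V (Units.mk0 c hc0) * T)⁻¹
        = sc V (Units.mk0 c hc0) * (T * un ρ n * T⁻¹) * (sc V (Units.mk0 c hc0))⁻¹ := by group
      _ = T * un ρ n * T⁻¹ := by rw [sc_comm, mul_inv_cancel_right]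
  · change dt V (sc V (Units.mk0 c hc0) * T) ^ N = 1
    rw [map_mul, dt_sc, hc1, inv_mul_cancel, one_pow]

theorem comm_of_sc {a b : Xi (un ρ) (dt V) N} {c : ℂˣ} (ha : p1 _ _ _ a = sc V c) (ha' : p2 _ _ _ a = 1) :
    a * b = b * a := by
  apply ext12
  · rw [map_mul, map_mul, ha, sc_comm]
  · rw [map_mul, map_mul, ha', one_mul, mul_one]

end rep

section main

variable {X : Type u} [Group X] [Finite X] {S : Type v} [Group S] {π : X →* S} {s : ℕ} {V : Type} [AddCommGroup V]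
  [Module ℂ V] [FiniteDimensional ℂ V]

/-- **the lifted triple in `Ξ`** -/
theorem exists_triple_Xi (hs : s.Prime) (hπ : Function.Surjective π) (hk : IsPGroup s π.ker)
    (hS : commutator S = ⊤) (ρ : Representation ℂ π.ker V) (hρ : ρ.IsIrreducible)
    (hinv : ∀ (g : X) (n : π.ker), ρ.character (MulAut.conjNormal g n) = ρ.character n) {x y z : X}
    (hx : ¬ s ∣ orderOf x) (hy : ¬ s ∣ orderOf y) (hz : ¬ s ∣ orderOf z) (hC : CLift s (π x) (π y) (π z)) :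
    ∃ A B C : Xi (un ρ) (dt V) (Nat.card π.ker), p2 _ _ _ A = x ∧ p2 _ _ _ B = y ∧ p2 _ _ _ C = z ∧
      A * B * C ∈ (diag (dt_un ρ)).range ∧ ¬ s ∣ orderOf A ∧ ¬ s ∣ orderOf B ∧ ¬ s ∣ orderOf C := by
  have : Fact s.Prime := ⟨hs⟩
  have hirr : ρ.IsIrreducible := hρ
  obtain ⟨k, hkc⟩ := IsPGroup.iff_card.1 hk
  obtain ⟨l, -, hl⟩ := (Nat.dvd_prime_pow hs).1 (hkc ▸ Cfsg.Agent.Characters.DegreeBounds.finrank_dvd_card ρ)
  have hfin := finite_Xi ρ hρ (N := Nat.card π.ker) Nat.card_pos.ne'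
  set Y := Xi (un ρ) (dt V) (Nat.card π.ker) with hY
  set D : Subgroup Y := (diag (dt_un ρ)).range with hD
  have hDs : IsPGroup s D := by
    rintro ⟨_, u, rfl⟩
    obtain ⟨j, hj⟩ := hk u
    refine ⟨j, Subtype.ext ?_⟩
    change diag (dt_un ρ) u ^ s ^ j = 1
    rw [← map_pow, hj, map_one]
  -- an element of the kernel of `Y → S`
  have hker : ∀ a : Y, a ∈ (π.comp (p2 (un ρ) (dt V) (Nat.card π.ker))).ker → ∃ (u : π.ker) (b : Y) (c : ℂˣ),
      a = diag (dt_un ρ) u * b ∧ p1 _ _ _ b = sc V c ∧ p2 _ _ _ b = 1 ∧ b ^ s ^ (l + k) = 1 := by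
    intro a ha
    let u : π.ker := ⟨p2 _ _ _ a, ha⟩
    have h2 : p2 _ _ _ ((diag (dt_un ρ) u)⁻¹ * a) = 1 := by
      rw [map_mul, map_inv, p2_diag, inv_mul_cancel]
    obtain ⟨c, hc, hc1⟩ := exists_sc_of_p2 ρ hρ h2
    refine ⟨u, (diag (dt_un ρ) u)⁻¹ * a, c, by rw [mul_inv_cancel_left], hc, h2, ?_⟩
    apply ext12
    · rw [map_pow, hc, ← map_pow, map_one]
      have h3 : s ^ (l + k) = finrank ℂ V * Nat.card π.ker := by rw [hkc, hl, pow_add]
      rw [h3, hc1, map_one]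
    · rw [map_pow, h2, one_pow, map_one]
  have hq : Function.Surjective (π.comp (p2 (un ρ) (dt V) (Nat.card π.ker))) := hπ.comp (p2_surjective ρ hρ hinv)
  obtain ⟨A, B, C, hA, hB, hC', hABC, oA, oB, oC⟩ := exists_triple hs hS hq (D := D) hDs (by
      rintro _ ⟨u, rfl⟩
      exact u.2) (by
      intro a ha b
      obtain ⟨u, b', c, rfl, hb1, hb2, -⟩ := hker a ha
      have h1 : diag (dt_un ρ) u * b' * b * (diag (dt_un ρ) u * b')⁻¹ * b⁻¹ =
          diag (dt_un ρ) u * (b * diag (dt_un ρ) u⁻¹ * b⁻¹) := by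
        have h2 : b' * b = b * b' := comm_of_sc ρ hb1 hb2
        calc diag (dt_un ρ) u * b' * b * (diag (dt_un ρ) u * b')⁻¹ * b⁻¹
            = diag (dt_un ρ) u * (b' * b) * b'⁻¹ * (diag (dt_un ρ) u)⁻¹ * b⁻¹ := by group
          _ = diag (dt_un ρ) u * (b * b') * b'⁻¹ * (diag (dt_un ρ) u)⁻¹ * b⁻¹ := by rw [h2]
          _ = diag (dt_un ρ) u * (b * diag (dt_un ρ) u⁻¹ * b⁻¹) := by rw [map_inv]; group
      rw [h1, conj_diag, ← map_mul]
      exact ⟨_, rfl⟩) (by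
      rintro ⟨a, ha⟩
      obtain ⟨u, b', c, rfl, hb1, hb2, hb3⟩ := hker a ha
      obtain ⟨j, hj⟩ := hk u
      refine ⟨j + (l + k), Subtype.ext ?_⟩
      change (diag (dt_un ρ) u * b') ^ s ^ (j + (l + k)) = 1
      have h2 : Commute (diag (dt_un ρ) u) b' := (comm_of_sc ρ hb1 hb2 (b := diag (dt_un ρ) u)).symm
      rw [h2.mul_pow, pow_add, pow_mul, ← map_pow, hj, map_one, one_pow, one_mul, mul_comm, pow_mul, hb3, one_pow]) hC
  -- the adjustment
  have adj : ∀ (t : X) (T : Y), ¬ s ∣ orderOf t → ¬ s ∣ orderOf T → π (p2 _ _ _ T) = π t →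
      ∃ T' : Y, p2 _ _ _ T' = t ∧ ¬ s ∣ orderOf T' ∧ (QuotientGroup.mk T' : Y ⧸ D) = QuotientGroup.mk T := by
    intro t T ht hT htT
    obtain ⟨e, he, hee⟩ := exists_conj hs hk (x := p2 _ _ _ T) (y := t)
      (fun h => hT (h.trans (orderOf_map_dvd _ T))) ht htT
    refine ⟨diag (dt_un ρ) ⟨e, he⟩ * T * (diag (dt_un ρ) ⟨e, he⟩)⁻¹, ?_, ?_, ?_⟩
    · rw [map_mul, map_mul, map_inv, p2_diag]
      exact hee
    · have h1 : diag (dt_un ρ) ⟨e, he⟩ * T * (diag (dt_un ρ) ⟨e, he⟩)⁻¹ =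
          MulAut.conj (diag (dt_un ρ) ⟨e, he⟩) T := rfl
      rwa [h1, MulEquiv.orderOf_eq]
    · have h1 : (QuotientGroup.mk (diag (dt_un ρ) ⟨e, he⟩) : Y ⧸ D) = 1 :=
        (QuotientGroup.eq_one_iff _).2 ⟨_, rfl⟩
      rw [QuotientGroup.mk_mul, QuotientGroup.mk_mul, QuotientGroup.mk_inv, h1, one_mul, inv_one, mul_one]
  obtain ⟨A', hA1, hA2, hA3⟩ := adj x A hx oA hA
  obtain ⟨B', hB1, hB2, hB3⟩ := adj y B hy oB hB
  obtain ⟨C', hC1, hC2, hC3⟩ := adj z C hz oC hC'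
  refine ⟨A', B', C', hA1, hB1, hC1, ?_, hA2, hB2, hC2⟩
  rw [← QuotientGroup.eq_one_iff] at hABC ⊢
  rw [QuotientGroup.mk_mul, QuotientGroup.mk_mul, hA3, hB3, hC3, ← QuotientGroup.mk_mul, ← QuotientGroup.mk_mul]
  exact hABC

end main

end Cfsg.Agent.H562.PQR.Lift
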