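import Mathlib
import Cfsg.Agent.H562.PQR.LiftC
import Cfsg.Agent.Characters.Core
import Cfsg.Agent.Characters.Galois

/-!
# S3988 (helper562), lifting lemma, part D: the sum `∑ χ(x^{e₁} y^{e₂} z^{e₃})` is real
-/

set_option autoImplicit false

namespace Cfsg.Agent.H562.PQR.Lift

open Module
open scoped ComplexConjugate

universe u v w

section zero

variable {X : Type u} [Group X] {P : Subgroup X} [hPn : P.Normal] [Fintype P] {V : Type} [AddCommGroup V] [Module ℂ V]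
  [FiniteDimensional ℂ V] (ρ : Representation ℂ P V)

omit [FiniteDimensional ℂ V] in
theorem intertwine (g : X) (u : P) : (∑ e : P, ρ e * ρ (MulAut.conjNormal g e⁻¹)) * ρ (MulAut.conjNormal g u) =
    ρ u * ∑ e : P, ρ e * ρ (MulAut.conjNormal g e⁻¹) := by
  rw [Finset.sum_mul, Finset.mul_sum]
  symm
  refine Fintype.sum_equiv (Equiv.mulLeft u) _ _ fun e => ?_
  change ρ u * (ρ e * ρ (MulAut.conjNormal g e⁻¹)) =
    ρ (u * e) * ρ (MulAut.conjNormal g (u * e)⁻¹) * ρ (MulAut.conjNormal g u)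
  have h1 : MulAut.conjNormal g (u * e)⁻¹ * MulAut.conjNormal g u = MulAut.conjNormal g e⁻¹ := by
    rw [← map_mul]
    congr 1
    group
  rw [mul_assoc (ρ (u * e)), ← map_mul ρ (MulAut.conjNormal g (u * e)⁻¹), h1, map_mul ρ u e, mul_assoc]

/-- the intertwiner of non-equivalent conjugates vanishes -/
theorem sum_eq_zero (hρ : ρ.IsIrreducible) (g : X)
    (h : ¬ ∀ n : P, ρ.character (MulAut.conjNormal g n) = ρ.character n) :
    ∑ e : P, ρ e * ρ (MulAut.conjNormal g e⁻¹) = 0 := by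
  by_contra hT
  set T : Module.End ℂ V := ∑ e : P, ρ e * ρ (MulAut.conjNormal g e⁻¹) with hTd
  have hint := intertwine ρ g
  rw [← hTd] at hint
  have hr := ((Cfsg.Agent.CharactersDeep.InvRep.isIrreducible_iff ρ).1 hρ).2 (LinearMap.range T) (by
    rintro u _ ⟨v, rfl⟩
    have h1 : ρ u (T v) = T (ρ (MulAut.conjNormal g u) v) := (LinearMap.congr_fun (hint u) v).symm
    rw [h1]
    exact LinearMap.mem_range_self _ _)
  rcases hr with hr | hr
  · exact hT (LinearMap.range_eq_bot.1 hr)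
  have hu : IsUnit T := (LinearMap.isUnit_iff_range_eq_top T).2 hr
  obtain ⟨U, hU⟩ := hu
  refine h fun n => ?_
  have h1 := hint n
  rw [← hU] at h1
  have h2 : ρ (MulAut.conjNormal g n) = ((U⁻¹ : (Module.End ℂ V)ˣ) : Module.End ℂ V) * ρ n * U := by
    rw [mul_assoc, ← h1, Units.inv_mul_cancel_left]
  change LinearMap.trace ℂ V (ρ (MulAut.conjNormal g n)) = LinearMap.trace ℂ V (ρ n)
  rw [h2, LinearMap.trace_mul_comm, ← mul_assoc, Units.mul_inv, one_mul]

/-- averages are scalars -/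
theorem sum_conj (hρ : ρ.IsIrreducible) (M : Module.End ℂ V) :
    ∑ e : P, ρ e * M * ρ e⁻¹ = ((Nat.card P : ℂ) * LinearMap.trace ℂ V M / finrank ℂ V) • 1 := by
  have hV : Nontrivial V := ((Cfsg.Agent.CharactersDeep.InvRep.isIrreducible_iff ρ).1 hρ).1
  have hd : (finrank ℂ V : ℂ) ≠ 0 := Nat.cast_ne_zero.2 finrank_pos.ne'
  obtain ⟨c, hc⟩ := Cfsg.Agent.CharactersDeep.InvRep.exists_smul_of_comm ρ hρ (∑ e : P, ρ e * M * ρ e⁻¹) (by
    intro g
    rw [Finset.sum_mul, Finset.mul_sum]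
    symm
    refine Fintype.sum_equiv (Equiv.mulLeft g) _ _ fun e => ?_
    change ρ g * (ρ e * M * ρ e⁻¹) = ρ (g * e) * M * ρ (g * e)⁻¹ * ρ g
    have h1 : ρ (g * e)⁻¹ * ρ g = ρ e⁻¹ := by
      rw [← map_mul]
      congr 1
      group
    rw [mul_assoc (ρ (g * e) * M), h1, map_mul ρ g e]
    simp only [mul_assoc])
  have h1 : LinearMap.trace ℂ V (∑ e : P, ρ e * M * ρ e⁻¹) = (Nat.card P : ℂ) * LinearMap.trace ℂ V M := by
    rw [map_sum]
    have h2 : ∀ e : P, LinearMap.trace ℂ V (ρ e * M * ρ e⁻¹) = LinearMap.trace ℂ V M := by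
      intro e
      rw [LinearMap.trace_mul_comm, ← mul_assoc, ← map_mul, inv_mul_cancel, map_one, one_mul]
    rw [Finset.sum_congr rfl fun e _ => h2 e, Finset.sum_const, Finset.card_univ, Nat.card_eq_fintype_card, nsmul_eq_mul]
  rw [hc, map_smul, LinearMap.trace_one, smul_eq_mul] at h1
  rw [hc, ← h1]
  congr 1
  field_simp

end zero

section real

variable {X : Type u} [Group X] {S : Type v} [Group S] {π : X →* S} {x y z : X}

/-- the product of the conjugates -/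
def F (h : π x * π y * π z = 1) (e₁ e₂ e₃ : π.ker) : π.ker :=
  ⟨((e₁ : X) * x * (e₁ : X)⁻¹) * ((e₂ : X) * y * (e₂ : X)⁻¹) * ((e₃ : X) * z * (e₃ : X)⁻¹), by
    have h1 := MonoidHom.mem_ker.1 e₁.2
    have h2 := MonoidHom.mem_ker.1 e₂.2
    have h3 := MonoidHom.mem_ker.1 e₃.2
    rw [MonoidHom.mem_ker]
    simp only [map_mul, map_inv, h1, h2, h3, one_mul, inv_one, mul_one]
    exact h⟩

theorem F_coe (h : π x * π y * π z = 1) (e₁ e₂ e₃ : π.ker) : (F h e₁ e₂ e₃ : X) =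
    ((e₁ : X) * x * (e₁ : X)⁻¹) * ((e₂ : X) * y * (e₂ : X)⁻¹) * ((e₃ : X) * z * (e₃ : X)⁻¹) := rfl

variable [Fintype π.ker] {V : Type} [AddCommGroup V] [Module ℂ V] [FiniteDimensional ℂ V]
  (ρ : Representation ℂ π.ker V)

/-- the sum -/
noncomputable def Nsum (h : π x * π y * π z = 1) : ℂ :=
  ∑ e₁ : π.ker, ∑ e₂ : π.ker, ∑ e₃ : π.ker, ρ.character (F h e₁ e₂ e₃)

theorem Nsum_eq_zero_x (hρ : ρ.IsIrreducible) (h : π x * π y * π z = 1)
    (hx : ¬ ∀ n : π.ker, ρ.character (MulAut.conjNormal x n) = ρ.character n) : Nsum ρ h = 0 := by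
  unfold Nsum
  rw [Finset.sum_comm]
  refine Finset.sum_eq_zero fun e₂ _ => ?_
  rw [Finset.sum_comm]
  refine Finset.sum_eq_zero fun e₃ _ => ?_
  let v : π.ker := F h 1 e₂ e₃
  have h1 : ∀ e₁ : π.ker, ρ.character (F h e₁ e₂ e₃) =
      LinearMap.trace ℂ V (ρ e₁ * ρ (MulAut.conjNormal x e₁⁻¹) * ρ v) := by
    intro e₁
    rw [← map_mul, ← map_mul]
    change ρ.character _ = ρ.character _
    congr 1
    apply Subtype.ext
    rw [Subgroup.coe_mul, Subgroup.coe_mul, MulAut.conjNormal_apply, F_coe, F_coe, Subgroup.coe_inv, Subgroup.coe_one]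
    group
  rw [Finset.sum_congr rfl fun e _ => h1 e, ← map_sum, ← Finset.sum_mul, sum_eq_zero ρ hρ x hx, zero_mul, map_zero]

theorem Nsum_eq_zero_z (hρ : ρ.IsIrreducible) (h : π x * π y * π z = 1)
    (hz : ¬ ∀ n : π.ker, ρ.character (MulAut.conjNormal z n) = ρ.character n) : Nsum ρ h = 0 := by
  unfold Nsum
  refine Finset.sum_eq_zero fun e₁ _ => Finset.sum_eq_zero fun e₂ _ => ?_
  let v : π.ker := F h e₁ e₂ 1
  have h1 : ∀ e : π.ker, ρ.character (F h e₁ e₂ (MulAut.conjNormal z e)) =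
      LinearMap.trace ℂ V (ρ v * (ρ e * ρ (MulAut.conjNormal z e⁻¹))) := by
    intro e
    rw [← map_mul, ← map_mul]
    change ρ.character _ = ρ.character _
    congr 1
    apply Subtype.ext
    rw [Subgroup.coe_mul, Subgroup.coe_mul, MulAut.conjNormal_apply, F_coe, F_coe, MulAut.conjNormal_apply,
      Subgroup.coe_inv, Subgroup.coe_one]
    group
  have h2 : ∑ e : π.ker, ρ.character (F h e₁ e₂ e) = ∑ e : π.ker, ρ.character (F h e₁ e₂ (MulAut.conjNormal z e)) :=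
    (Fintype.sum_equiv (MulAut.conjNormal z : π.ker ≃* π.ker).toEquiv _ _ fun e => rfl).symm
  rw [h2, Finset.sum_congr rfl fun e _ => h1 e, ← map_sum, ← Finset.mul_sum, sum_eq_zero ρ hρ z hz, mul_zero, map_zero]

end real

end Cfsg.Agent.H562.PQR.Lift
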