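import Mathlib
import Cfsg.Agent.H562.PQR.LiftD

/-!
# S3988 (helper562), lifting lemma, part E: the lifting lemma

`lift_of_clift` : `π : X → S` onto with kernel an `s`-group, `s` odd, `S` perfect, `x y z = 1` a generating triple of
`s'`-elements of `S` with `CLift s x y z`. Then `(x, y, z)` lifts to `s'`-elements with product one of `X`.
-/

set_option autoImplicit false

namespace Cfsg.Agent.H562.PQR.Lift

open Module Cfsg
open scoped ComplexConjugate

universe u v w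

section galois

/-- an automorphism of `ℂ` fixing the `s'`-roots of unity and inverting the `s`-power roots of unity -/
theorem exists_sigma {s : ℕ} (hs : s.Prime) {n : ℕ} (hn : n ≠ 0) : ∃ (σ : ℂ ≃+* ℂ) (m : ℕ),
    (∀ z : ℂ, z ^ n = 1 → σ z = z ^ m) ∧ (∀ (G : Type u) [Group G] (g : G), g ^ n = 1 → ¬ s ∣ orderOf g → g ^ m = g) ∧
      ∀ (G : Type u) [Group G] (g : G), g ^ n = 1 → (∃ k, g ^ s ^ k = 1) → g ^ m = g⁻¹ := by
  obtain ⟨j, n', hn', hj⟩ := Nat.exists_eq_pow_mul_and_not_dvd hn s hs.ne_one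
  have hco : Nat.Coprime n' (s ^ j) := (Nat.Coprime.pow_left j ((Nat.Prime.coprime_iff_not_dvd hs).2 hn')).symm
  have hsj : 0 < s ^ j := pow_pos hs.pos j
  obtain ⟨m, hm1, hm2⟩ := Nat.chineseRemainder hco 1 (s ^ j - 1)
  have hm3 : s ^ j ∣ m + 1 := by
    have h1 : m + 1 ≡ s ^ j - 1 + 1 [MOD s ^ j] := hm2.add_right 1
    rw [Nat.sub_add_cancel hsj] at h1
    exact (Nat.modEq_zero_iff_dvd).1 (h1.trans (by simp [Nat.ModEq]))
  have hmc : m.Coprime n := by
    rw [hj]
    refine Nat.Coprime.mul_right ?_ ?_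
    · have h1 : Nat.Coprime m (m + 1) := by simp
      exact Nat.Coprime.coprime_dvd_right hm3 h1
    · have h1 := hm1.gcd_eq
      rw [Nat.coprime_iff_gcd_eq_one, h1, Nat.gcd_one_left]
  obtain ⟨σ, hσ⟩ := Cfsg.Agent.Characters.Galois.exists_ringEquiv_complex hn hmc
  refine ⟨σ, m, hσ, ?_, ?_⟩
  · intro G _ g hg hsg
    have h1 : orderOf g ∣ n' := by
      have h2 : orderOf g ∣ s ^ j * n' := by rw [← hj]; exact orderOf_dvd_of_pow_eq_one hg
      exact Nat.Coprime.dvd_of_dvd_mul_left (Nat.Coprime.pow_left j ((Nat.Prime.coprime_iff_not_dvd hs).2 hsg)).symm h2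
    have h2 : m ≡ 1 [MOD orderOf g] := hm1.of_dvd h1
    rw [pow_eq_pow_iff_modEq.2 h2, pow_one]
  · rintro G _ g hg ⟨k, hk⟩
    have h1 : orderOf g ∣ s ^ j := by
      have h2 : orderOf g ∣ s ^ j * n' := by rw [← hj]; exact orderOf_dvd_of_pow_eq_one hg
      have h3 : orderOf g ∣ s ^ k := orderOf_dvd_of_pow_eq_one hk
      have h4 : Nat.Coprime (orderOf g) n' :=
        Nat.Coprime.coprime_dvd_left h3 (Nat.Coprime.pow_left k ((Nat.Prime.coprime_iff_not_dvd hs).2 hn'))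
      exact h4.dvd_of_dvd_mul_right h2
    have h2 : g ^ (m + 1) = 1 := orderOf_dvd_iff_pow_eq_one.1 (h1.trans hm3)
    rw [pow_succ] at h2
    exact eq_inv_of_mul_eq_one_left h2

end galois

section real

variable {X : Type u} [Group X] [Finite X] {S : Type v} [Group S] {π : X →* S} {x y z : X} {s : ℕ}
  [Fintype π.ker] {V : Type} [AddCommGroup V] [Module ℂ V] [FiniteDimensional ℂ V]

/-- **the invariant case** -/
theorem Nsum_real_of_inv (hs : s.Prime) (hπ : Function.Surjective π) (hk : IsPGroup s π.ker)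
    (hS : commutator S = ⊤) (ρ : Representation ℂ π.ker V) (hρ : ρ.IsIrreducible)
    (hinv : ∀ (g : X) (n : π.ker), ρ.character (MulAut.conjNormal g n) = ρ.character n)
    (hx : ¬ s ∣ orderOf x) (hy : ¬ s ∣ orderOf y) (hz : ¬ s ∣ orderOf z) (hC : CLift s (π x) (π y) (π z))
    (h : π x * π y * π z = 1) : conj (Nsum ρ h) = Nsum ρ h := by
  have hfin := finite_Xi ρ hρ (N := Nat.card π.ker) Nat.card_pos.ne'
  obtain ⟨A, B, C, hA, hB, hC', hABC, oA, oB, oC⟩ := exists_triple_Xi hs hπ hk hS ρ hρ hinv hx hy hz hC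
  let R : Representation ℂ (Xi (un ρ) (dt V) (Nat.card π.ker)) V := (Units.coeHom (Module.End ℂ V)).comp (p1 (un ρ) (dt V) (Nat.card π.ker))
  have hR : ∀ u : π.ker, R (diag (dt_un ρ) u) = ρ u := fun u => rfl
  obtain ⟨σ, m, hσ, hσ1, hσ2⟩ := exists_sigma hs (n := Nat.card (Xi (un ρ) (dt V) (Nat.card π.ker))) Nat.card_pos.ne'
  have hpow : ∀ g : Xi (un ρ) (dt V) (Nat.card π.ker), g ^ Nat.card (Xi (un ρ) (dt V) (Nat.card π.ker)) = 1 := fun g => pow_card_eq_one'
  have hchar := fun g : Xi (un ρ) (dt V) (Nat.card π.ker) => Cfsg.Agent.Characters.Galois.map_character (σ : ℂ →+* ℂ)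
    (n := Nat.card (Xi (un ρ) (dt V) (Nat.card π.ker))) Nat.card_pos.ne' (m := m) hσ R g (hpow g)
  -- on the kernel
  have hker : ∀ u : π.ker, σ (ρ.character u) = conj (ρ.character u) := by
    intro u
    have h1 := hchar (diag (dt_un ρ) u)
    obtain ⟨j, hj⟩ := hk u
    rw [hσ2 _ (diag (dt_un ρ) u) (hpow _) ⟨j, by rw [← map_pow, hj, map_one]⟩, ← map_inv] at h1
    have h2 : ρ.character u⁻¹ = conj (ρ.character u) :=
      Cfsg.Agent.Characters.Core.isCharacter_apply_inv (Cfsg.Agent.Characters.Core.isCharacter_of_rep ρ) u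
    rw [← h2]
    exact h1
  -- on the `s'`-elements
  have hreg : ∀ g : Xi (un ρ) (dt V) (Nat.card π.ker), ¬ s ∣ orderOf g → σ (R.character g) = R.character g := by
    intro g hg
    have h1 := hchar g
    rw [hσ1 _ g (hpow _) hg] at h1
    exact h1
  -- the elements `F`
  have hF : ∀ e₁ e₂ e₃ : π.ker, ρ (F h e₁ e₂ e₃) =
      (ρ e₁ * R A * ρ e₁⁻¹) * (ρ e₂ * R B * ρ e₂⁻¹) * (ρ e₃ * R C * ρ e₃⁻¹) := by
    intro e₁ e₂ e₃
    let E := diag (dt_un ρ)
    have hmk : ∀ e : π.ker, (QuotientGroup.mk (E e) : Xi (un ρ) (dt V) (Nat.card π.ker) ⧸ E.range) = 1 := fun e =>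
      (QuotientGroup.eq_one_iff _).2 ⟨e, rfl⟩
    have h1 : E e₁ * A * E e₁⁻¹ * (E e₂ * B * E e₂⁻¹) * (E e₃ * C * E e₃⁻¹) ∈ E.range := by
      rw [← QuotientGroup.eq_one_iff] at hABC ⊢
      simp only [QuotientGroup.mk_mul, hmk, one_mul, mul_one]
      rw [← QuotientGroup.mk_mul, ← QuotientGroup.mk_mul]
      exact hABC
    obtain ⟨u, hu⟩ := h1
    have h2 : u = F h e₁ e₂ e₃ := by
      apply Subtype.ext
      have h3 := congrArg (p2 (un ρ) (dt V) (Nat.card π.ker)) hu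
      simp only [map_mul, hA, hB, hC'] at h3
      exact h3
    rw [h2] at hu
    have h3 := congrArg R hu
    simp only [map_mul] at h3
    exact h3
  set a : ℂ := (Nat.card π.ker : ℂ) * LinearMap.trace ℂ V (R A) / finrank ℂ V with ha
  set b : ℂ := (Nat.card π.ker : ℂ) * LinearMap.trace ℂ V (R B) / finrank ℂ V with hb
  set c : ℂ := (Nat.card π.ker : ℂ) * LinearMap.trace ℂ V (R C) / finrank ℂ V with hc
  have hN : Nsum ρ h = a * b * c * finrank ℂ V := by
    have h1 : Nsum ρ h = LinearMap.trace ℂ V ((∑ e : π.ker, ρ e * R A * ρ e⁻¹) * (∑ e : π.ker, ρ e * R B * ρ e⁻¹) *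
        (∑ e : π.ker, ρ e * R C * ρ e⁻¹)) := by
      unfold Nsum
      rw [Finset.sum_mul, Finset.sum_mul, map_sum]
      refine Finset.sum_congr rfl fun e₁ _ => ?_
      rw [mul_assoc, Finset.sum_mul, Finset.mul_sum, map_sum]
      refine Finset.sum_congr rfl fun e₂ _ => ?_
      rw [← mul_assoc, Finset.mul_sum, map_sum]
      refine Finset.sum_congr rfl fun e₃ _ => ?_
      rw [← hF]
      rfl
    rw [h1, sum_conj ρ hρ, sum_conj ρ hρ, sum_conj ρ hρ, ← ha, ← hb, ← hc, smul_mul_smul_comm, smul_mul_smul_comm,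
      one_mul, one_mul, map_smul, LinearMap.trace_one, smul_eq_mul]
  have hσN : σ (Nsum ρ h) = Nsum ρ h := by
    have hA1 : σ (LinearMap.trace ℂ V (R A)) = LinearMap.trace ℂ V (R A) := hreg A oA
    have hB1 : σ (LinearMap.trace ℂ V (R B)) = LinearMap.trace ℂ V (R B) := hreg B oB
    have hC1 : σ (LinearMap.trace ℂ V (R C)) = LinearMap.trace ℂ V (R C) := hreg C oC
    rw [hN, ha, hb, hc]
    simp only [map_mul, map_div₀, map_natCast, hA1, hB1, hC1]
  have hσN' : σ (Nsum ρ h) = conj (Nsum ρ h) := by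
    unfold Nsum
    simp only [map_sum, hker]
  rw [← hσN', hσN]

/-- **the sum is real** -/
theorem Nsum_real (hs : s.Prime) (hπ : Function.Surjective π) (hk : IsPGroup s π.ker)
    (hS : commutator S = ⊤) (ρ : Representation ℂ π.ker V) (hρ : ρ.IsIrreducible)
    (hx : ¬ s ∣ orderOf x) (hy : ¬ s ∣ orderOf y) (hz : ¬ s ∣ orderOf z) (hC : CLift s (π x) (π y) (π z))
    (h : π x * π y * π z = 1) (hgen : Subgroup.closure ({π x, π y, π z} : Set S) = ⊤) :
    conj (Nsum ρ h) = Nsum ρ h := by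
  by_cases hix : ∀ n : π.ker, ρ.character (MulAut.conjNormal x n) = ρ.character n
  swap
  · rw [Nsum_eq_zero_x ρ hρ h hix, map_zero]
  by_cases hiz : ∀ n : π.ker, ρ.character (MulAut.conjNormal z n) = ρ.character n
  swap
  · rw [Nsum_eq_zero_z ρ hρ h hiz, map_zero]
  refine Nsum_real_of_inv hs hπ hk hS ρ hρ ?_ hx hy hz hC h
  let I : Subgroup X :=
    { carrier := {g | ∀ n : π.ker, ρ.character (MulAut.conjNormal g n) = ρ.character n}
      mul_mem' := by
        intro a b ha hb n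
        rw [map_mul, MulAut.mul_apply, ha, hb]
      one_mem' := fun n => by rw [map_one, MulAut.one_apply]
      inv_mem' := by
        intro a ha n
        rw [← ha (MulAut.conjNormal a⁻¹ n), ← MulAut.mul_apply, ← map_mul, mul_inv_cancel, map_one, MulAut.one_apply] }
  have hkI : π.ker ≤ I := by
    intro g hg n
    have h1 : MulAut.conjNormal g n = (⟨g, hg⟩ : π.ker) * n * (⟨g, hg⟩ : π.ker)⁻¹ := by
      apply Subtype.ext
      rw [MulAut.conjNormal_apply]
      rfl
    rw [h1]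
    exact ρ.char_conj n ⟨g, hg⟩
  have hxI : x ∈ I := hix
  have hzI : z ∈ I := hiz
  have hyI : y ∈ I := by
    have h1 : x * y * z ∈ π.ker := by rw [MonoidHom.mem_ker, map_mul, map_mul, h]
    have h2 : y = x⁻¹ * (x * y * z) * z⁻¹ := by group
    rw [h2]
    exact mul_mem (mul_mem (inv_mem hxI) (hkI h1)) (inv_mem hzI)
  have hmap : I.map π = ⊤ := by
    rw [eq_top_iff, ← hgen, Subgroup.closure_le]
    rintro t ht
    rcases ht with rfl | rfl | rfl
    · exact ⟨x, hxI, rfl⟩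
    · exact ⟨y, hyI, rfl⟩
    · exact ⟨z, hzI, rfl⟩
  intro g
  have h1 : π g ∈ I.map π := by rw [hmap]; trivial
  obtain ⟨g', hg', h2⟩ := h1
  have h3 : g * g'⁻¹ ∈ π.ker := by rw [MonoidHom.mem_ker, map_mul, map_inv, h2, mul_inv_cancel]
  have h4 := mul_mem (hkI h3) hg'
  rw [inv_mul_cancel_right] at h4
  exact h4

end real

end Cfsg.Agent.H562.PQR.Lift
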