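import Mathlib
import Cfsg.Agent.H562.PQR.LiftE
import Cfsg.Agent.H410.PQR.Red

/-!
# S3988 (helper562): the lifting lemma

`lift_of_clift` : `π : X → S` onto with kernel an `s`-group, `s` odd, `S` perfect, `x y z = 1` a generating triple of
`s'`-elements of `S` with `CLift s x y z`. Then `(x, y, z)` lifts to a triple of `s'`-elements of `X` with product one.

Proof: let `f(c)` be the number of `(e₁, e₂, e₃) ∈ P³`, `P = ker π`, with `x^{e₁} y^{e₂} z^{e₃} = c` for fixed `s'`-lifts.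
`f` is a class function of `P` and `f(c) = f(c⁻¹)`, as `∑ χ(x^{e₁} y^{e₂} z^{e₃})` is real for all `χ ∈ Irr P`. Since `|P|` is
odd, `f(1) ≡ ∑ f(c) = |P|³ ≡ 1` modulo 2.
-/

set_option autoImplicit false

namespace Cfsg.Agent.H562.PQR.Lift

open Module Cfsg
open scoped ComplexConjugate

universe u v w

section count

variable {X : Type u} [Group X] {S : Type v} [Group S] {π : X →* S} {x y z : X} [Fintype π.ker] [DecidableEq π.ker]

/-- the number of solutions of `x^{e₁} y^{e₂} z^{e₃} = c` -/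
def cnt (h : π x * π y * π z = 1) (c : π.ker) : ℕ :=
  ∑ e₁ : π.ker, ∑ e₂ : π.ker, ∑ e₃ : π.ker, if F h e₁ e₂ e₃ = c then 1 else 0

theorem sum_cnt (h : π x * π y * π z = 1) (φ : π.ker → ℂ) : ∑ c : π.ker, (cnt h c : ℂ) * φ c =
    ∑ e₁ : π.ker, ∑ e₂ : π.ker, ∑ e₃ : π.ker, φ (F h e₁ e₂ e₃) := by
  have h1 : ∀ c : π.ker, (cnt h c : ℂ) * φ c =
      ∑ e₁ : π.ker, ∑ e₂ : π.ker, ∑ e₃ : π.ker, if F h e₁ e₂ e₃ = c then φ c else 0 := by
    intro c
    rw [cnt]
    push_cast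
    rw [Finset.sum_mul]
    refine Finset.sum_congr rfl fun e₁ _ => ?_
    rw [Finset.sum_mul]
    refine Finset.sum_congr rfl fun e₂ _ => ?_
    rw [Finset.sum_mul]
    refine Finset.sum_congr rfl fun e₃ _ => ?_
    rw [ite_mul, one_mul, zero_mul]
  rw [Finset.sum_congr rfl fun c _ => h1 c, Finset.sum_comm]
  refine Finset.sum_congr rfl fun e₁ _ => ?_
  rw [Finset.sum_comm]
  refine Finset.sum_congr rfl fun e₂ _ => ?_
  rw [Finset.sum_comm]
  refine Finset.sum_congr rfl fun e₃ _ => ?_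
  rw [Finset.sum_ite_eq, if_pos (Finset.mem_univ _)]

theorem sum_cnt_nat (h : π x * π y * π z = 1) : ∑ c : π.ker, cnt h c =
    Fintype.card π.ker * (Fintype.card π.ker * Fintype.card π.ker) := by
  have h1 := sum_cnt h (fun _ => (1 : ℂ))
  simp only [mul_one, Finset.sum_const, Finset.card_univ, nsmul_eq_mul] at h1
  exact_mod_cast h1

theorem cnt_conj (h : π x * π y * π z = 1) (c u : π.ker) : cnt h (u * c * u⁻¹) = cnt h c := by
  have h1 : ∀ e₁ e₂ e₃ : π.ker, F h (u * e₁) (u * e₂) (u * e₃) = u * F h e₁ e₂ e₃ * u⁻¹ := by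
    intro e₁ e₂ e₃
    apply Subtype.ext
    rw [Subgroup.coe_mul, Subgroup.coe_mul, F_coe, F_coe, Subgroup.coe_inv, Subgroup.coe_mul, Subgroup.coe_mul,
      Subgroup.coe_mul]
    group
  rw [cnt, cnt]
  symm
  refine Fintype.sum_equiv (Equiv.mulLeft u) _ _ fun e₁ => ?_
  refine Fintype.sum_equiv (Equiv.mulLeft u) _ _ fun e₂ => ?_
  refine Fintype.sum_equiv (Equiv.mulLeft u) _ _ fun e₃ => ?_
  rw [Equiv.coe_mulLeft, h1]
  have h2 : (u * F h e₁ e₂ e₃ * u⁻¹ = u * c * u⁻¹) ↔ F h e₁ e₂ e₃ = c := by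
    rw [mul_left_inj, mul_right_inj]
  simp only [h2]

end count

/-- **the symmetry of the number of solutions** -/
theorem cnt_inv {X : Type u} [Group X] [Finite X] {S : Type v} [Group S] {π : X →* S} {x y z : X} {s : ℕ}
    [Fintype π.ker] [DecidableEq π.ker] (hs : s.Prime) (hπ : Function.Surjective π) (hk : IsPGroup s π.ker)
    (hS : commutator S = ⊤) (hx : ¬ s ∣ orderOf x) (hy : ¬ s ∣ orderOf y) (hz : ¬ s ∣ orderOf z)
    (hC : CLift s (π x) (π y) (π z)) (h : π x * π y * π z = 1)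
    (hgen : Subgroup.closure ({π x, π y, π z} : Set S) = ⊤) (c : π.ker) : cnt h c⁻¹ = cnt h c := by
  let D : π.ker → ℂ := fun c => (cnt h c : ℂ) - (cnt h c⁻¹ : ℂ)
  have hD : D = 0 := by
    apply Cfsg.Agent.Characters.Core.classFunction_eq_zero
    · intro g u
      change (cnt h (u * g * u⁻¹) : ℂ) - (cnt h (u * g * u⁻¹)⁻¹ : ℂ) = (cnt h g : ℂ) - (cnt h g⁻¹ : ℂ)
      have h1 : (u * g * u⁻¹)⁻¹ = u * g⁻¹ * u⁻¹ := by group
      rw [h1, cnt_conj, cnt_conj]
    · rintro χ ⟨n, ρ, hρ, rfl⟩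
      have hconj : ∀ g : π.ker, conj (ρ.character g) = ρ.character g⁻¹ := fun g =>
        (Cfsg.Agent.Characters.Core.isCharacter_apply_inv (Cfsg.Agent.Characters.Core.isCharacter_of_rep ρ) g).symm
      have hreal := Nsum_real hs hπ hk hS ρ hρ hx hy hz hC h hgen
      have h1 : ∑ g : π.ker, (cnt h g : ℂ) * conj (ρ.character g) = conj (Nsum ρ h) := by
        rw [sum_cnt h (fun g => conj (ρ.character g))]
        unfold Nsum
        simp only [map_sum]
      have h2 : ∑ g : π.ker, (cnt h g⁻¹ : ℂ) * conj (ρ.character g) = Nsum ρ h := by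
        have h3 : ∑ g : π.ker, (cnt h g⁻¹ : ℂ) * conj (ρ.character g) = ∑ g : π.ker, (cnt h g : ℂ) * ρ.character g := by
          refine Fintype.sum_equiv (Equiv.inv π.ker) _ _ fun g => ?_
          rw [hconj]
          rfl
        rw [h3, sum_cnt h (fun g => ρ.character g)]
        rfl
      rw [Cfsg.Agent.Characters.Core.classInner_def]
      have h4 : ∑ g : π.ker, D g * conj (ρ.character g) = 0 := by
        change ∑ g : π.ker, ((cnt h g : ℂ) - (cnt h g⁻¹ : ℂ)) * conj (ρ.character g) = 0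
        simp only [sub_mul, Finset.sum_sub_distrib]
        rw [h1, h2, hreal, sub_self]
      rw [h4, mul_zero]
  have h1 : (cnt h c : ℂ) - (cnt h c⁻¹ : ℂ) = 0 := congrFun hD c
  exact_mod_cast (sub_eq_zero.1 h1).symm

/-- **THE LIFTING LEMMA** -/
theorem lift_of_clift : Cfsg.Agent.H410.PQR.LiftStmt.{u} := by
  intro s hs hs2 X S _ _ _ _ π hπ hk hS x y z hx hy hz hxyz hgen hC
  classical
  have : Fact s.Prime := ⟨hs⟩
  have := Fintype.ofFinite π.ker
  obtain ⟨x₀, rfl⟩ := hπ x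
  obtain ⟨y₀, rfl⟩ := hπ y
  obtain ⟨z₀, rfl⟩ := hπ z
  obtain ⟨x', hx1, hx2⟩ := exists_lift hs x₀ hx
  obtain ⟨y', hy1, hy2⟩ := exists_lift hs y₀ hy
  obtain ⟨z', hz1, hz2⟩ := exists_lift hs z₀ hz
  rw [← hx1, ← hy1, ← hz1] at hxyz hgen hC
  rw [← hx1, ← hy1, ← hz1]
  have hodd : Odd (Nat.card π.ker) := by
    obtain ⟨n, hn⟩ := IsPGroup.iff_card.1 hk
    rw [hn]
    exact (hs.odd_of_ne_two hs2).pow
  have hodd' : Odd (Fintype.card π.ker) := by rwa [← Nat.card_eq_fintype_card]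
  have h1 := ne_zero_of_symm hodd (cnt hxyz) (cnt_inv hs hπ hk hS hx2 hy2 hz2 hC hxyz hgen) (by
    rw [sum_cnt_nat]
    exact hodd'.mul (hodd'.mul hodd'))
  have h2 : ∃ e₁ e₂ e₃ : π.ker, F hxyz e₁ e₂ e₃ = 1 := by
    by_contra hne
    push Not at hne
    refine h1 ?_
    rw [cnt]
    refine Finset.sum_eq_zero fun e₁ _ => Finset.sum_eq_zero fun e₂ _ => Finset.sum_eq_zero fun e₃ _ => ?_
    rw [if_neg (hne e₁ e₂ e₃)]
  obtain ⟨e₁, e₂, e₃, he⟩ := h2
  have hc : ∀ (e : π.ker) (t : X), π ((e : X) * t * (e : X)⁻¹) = π t ∧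
      orderOf ((e : X) * t * (e : X)⁻¹) = orderOf t := by
    intro e t
    refine ⟨?_, ?_⟩
    · rw [map_mul, map_mul, map_inv, MonoidHom.mem_ker.1 e.2, one_mul, inv_one, mul_one]
    · have h3 : (e : X) * t * (e : X)⁻¹ = MulAut.conj (e : X) t := rfl
      rw [h3, MulEquiv.orderOf_eq]
  refine ⟨_, _, _, (hc e₁ x').1, (hc e₂ y').1, (hc e₃ z').1, congrArg Subtype.val he, ?_, ?_, ?_⟩
  · rwa [(hc e₁ x').2]
  · rwa [(hc e₂ y').2]
  · rwa [(hc e₃ z').2]

end Cfsg.Agent.H562.PQR.Lift
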